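import Cfsg.Agent.Deg.Pal2

/-!
Normal subgroups all of whose non-linear characters extend, without divisibility among degrees.
-/

set_option autoImplicit false

namespace CF.Degs

open Cfsg Subgroup CF.BG CF.Clifford CF.Char CF.Fgs2.Isa MulAction
open scoped commutatorElement

attribute [local instance] Fintype.ofFinite linAct

universe u v

variable {G : Type u} [Group G] [Finite G] {d m p q r s t : ℕ} {A D H K L M N P Q T W X : Subgroup G}

theorem cop_Kd [N.Normal] (h : SDProd N H ⊤) (c : (♯N).Coprime (♯H)) {θ : N → ℂ}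
    (hθ : IsIrrCharacter N θ) (e : θ 1 = t)
    (hd : d ∈ 𝐜𝐝 (((NormalEmb.sub N).inertia θ).subgroupOf H)) :
    Kd N θ (((NormalEmb.sub N).inertia θ).index * (d * t)) := by
  have l := le_inertia_self hθ
  obtain ⟨β, x, y, z⟩ := sd_char h l hd
  obtain ⟨η, a, b⟩ := ((NormalEmb.sub N).restrict _ fun n => l n.2).exists_ext_of_coprime_card hθ
    (fun g => congrFun g.2) (by
      rw [NormalEmb.index_restrict_sub]
      exact (c.symm.coprime_dvd_left ((relIndex_dvd_of_norm le_top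
        (normalIn_top.2 ‹_›).norm).trans h.relIndex_left.dvd)))
  obtain ⟨χ, u, v, w⟩ := exists_over_mul (NormalEmb.sub N) hθ le_rfl (fun n => l n.2)
    (irr_isCharacter a) b x fun n => (mem_charKer_iff (irr_isCharacter x)).1 (y n.2)
  exact ⟨χ, u, v, by rw [w, z, e]; push_cast; rfl⟩

theorem Kd.rc2 {θ : P → ℂ} (k : Kd P θ d) (h : IsIrrCharacter P θ)
    (o : ¬ N.subgroupOf P ≤ charKer θ) : d ∈ 𝐫𝐜 N :=
  let ⟨_, x, y, z⟩ := k
  rc_of x (fun w => o (le_trans (by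
    rw [charKer_restrict (irr_isCharacter x)]; exact subgroupOf_mono P w)
    (charKer_le_of_inner_ne_zero (char_restrict (irr_isCharacter x) _) h y))) z

omit [Finite G] in
theorem der_sub (P : Subgroup G) : ⁅P, P⁆.subgroupOf P = commutator P := by
  rw [commutator_def, ← subgroupOf_self, ← subgroupOf_comm le_rfl le_rfl]

theorem Kd.rc3 {θ : P → ℂ} (k : Kd P θ d) (h : IsIrrCharacter P θ) (l : ⁅P, P⁆ ≤ N)
    (o : θ 1 ≠ 1) : d ∈ 𝐫𝐜 N :=
  Kd.rc2 k h fun w => o ((irr_one_eq_one_iff h).2 (der_sub P ▸ (subgroupOf_mono P l).trans w))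

theorem dvd_of_rc [L.Normal] (h : d ∈ 𝐫𝐜 ⁅L, L⁆) : ∃ t ∈ 𝐜𝐝 L, t ≠ 1 ∧ t ∣ d := by
  obtain ⟨χ, x, y, z⟩ := mem_rc.1 h
  obtain ⟨θ, a, b⟩ := CF.Char.exists_irr_under L x
  obtain ⟨t, c, e⟩ := exists_cd a
  refine ⟨t, c, fun w => y (le_ker_of_const (der_le L) x a b ?_),
    (Dvd.intro_left _ rfl).trans (Kd.dvd ⟨χ, x, b, z⟩ a e)⟩
  rw [der_sub]
  exact (irr_one_eq_one_iff a).1 (by simp [e, w])

theorem rc_quot [D.Normal] {χ : G → ℂ} (h : IsIrrCharacter G χ) (k : ¬ N ≤ charKer χ)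
    (l : D ≤ charKer χ) (e : χ 1 = d) : d ∈ 𝐫𝐜 (N.map (QuotientGroup.mk' D)) := by
  obtain ⟨ψ, x, rfl⟩ := exists_irr_quotient h D l
  refine rc_of x (fun w => k ?_) e
  rw [map_le_iff_le_comap, ← charKer_comp ψ _ (QuotientGroup.mk'_surjective D)] at w
  exact w

theorem eq_of_pow {S : Set ℕ} (h : ∀ a ∈ S, ∀ b ∈ S, a ≠ 1 → a ∣ b → a = b) {i j : ℕ}
    (a : p ^ i ∈ S) (b : p ^ j ∈ S) (x : p ^ i ≠ 1) (y : p ^ j ≠ 1) : p ^ i = p ^ j :=
  (le_total i j).elim (fun l => h _ a _ b x (pow_dvd_pow p l))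
    fun l => (h _ b _ a y (pow_dvd_pow p l)).symm

/-- no divisibility and a non-abelian factor group of prime power order -/
theorem two_of_pquot (h : ∀ a ∈ 𝐜𝐝 G, ∀ b ∈ 𝐜𝐝 G, a ≠ 1 → a ∣ b → a = b) [K.Normal] (hp : p.Prime)
    (k : IsPGroup p (G ⧸ K)) (hm : m ∈ 𝐜𝐝 (G ⧸ K)) (m1 : m ≠ 1) : 𝐜𝐝 G ⊆ {1, m} := by
  have := Fact.mk hp
  have hm' := cd_quot K hm
  obtain ⟨L, _, x, j, y⟩ := npc_of_cd hp fun d hd d1 => dvd_of_pquot hp k hm hd fun w =>
    m1 (Nat.eq_of_mul_eq_mul_right (cd_pos hd) ((h _ hd _ w d1 (Dvd.intro_left _ rfl)).symm.trans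
      (one_mul d).symm))
  have kL : PiGrp {p}ᶜ L := (piNat_compl_single hp).2 x
  have hL : Hall {p}ᶜ L ⊤ := ⟨le_top, kL, by
    rw [relIndex_top_right, y]; exact (piNat_pow_self hp j).compl_compl⟩
  obtain ⟨P, sd, hP⟩ := hL.exists_compl (normalIn_top.2 ‹_›).norm
  have kP := hP.pi.of_compl_compl
  have f := QuotientGroup.mk'_surjective K
  have lK : L ≤ K := by
    rw [← QuotientGroup.ker_mk' K, ← Subgroup.map_eq_bot_iff]
    exact ((piGrp_iff_isPGroup hp).2 (k.to_subgroup _)).eq_bot (kL.map _)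
  have mP : m ∈ 𝐜𝐝 P := cd_subset_of_surj ((QuotientGroup.mk' K).comp P.subtype) (fun g => by
    obtain ⟨g, rfl⟩ := f g
    obtain ⟨a, ha, b, hb, rfl⟩ := sd.exists_mul (mem_top g)
    exact ⟨⟨b, hb⟩, by simp [(QuotientGroup.eq_one_iff a).2 (lK ha)]⟩) hm
  obtain ⟨e, rfl⟩ := cd_pow_of_isPGroup hp k hm
  have a : Abel L := abel_iff_cd.2 fun t ht => by
    by_contra t1
    obtain ⟨θ, u, v⟩ := mem_cd.1 ht
    have A := fun d => cop_mul (d := d) sd (sd.coprime hL) u v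
    set J := ((NormalEmb.sub L).inertia θ).subgroupOf P
    have B := A 1 one_mem_cd
    have C : Abel J := abel_iff_cd.2 fun d hd => by
      have := h _ B _ (A d hd) (fun w => t1 (Nat.eq_one_of_mul_eq_one_left
        (Nat.eq_one_of_mul_eq_one_left w))) ⟨d, by ring⟩
      exact (Nat.eq_of_mul_eq_mul_right (cd_pos ht) (Nat.eq_of_mul_eq_mul_left
        (Nat.pos_of_ne_zero index_ne_zero_of_finite) this)).symm
    obtain ⟨i, hi⟩ := PiNat.exists_pow (PiNat.dvd kP J.index_dvd_card) index_ne_zero_of_finite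
    have l := cd_le_index C mP
    rw [hi, Nat.pow_le_pow_iff_right hp.one_lt] at l
    have := h _ hm' _ B m1 (Dvd.dvd.mul_right (hi ▸ pow_dvd_pow p l) _)
    exact t1 ((PiNat.dvd (piNat_pow_self hp e) ⟨J.index, by rw [this]; ring⟩).eq_one
      (PiNat.dvd kL (cd_dvd_card ht)))
  intro d hd
  obtain ⟨i, -, rfl⟩ := (Nat.dvd_prime_pow hp).1 (y ▸ cd_dvd_index a hd)
  exact or_iff_not_imp_left.2 fun w => eq_of_pow h hd hm' w m1

/-- the hypothesis -/
structure Hy (N : Subgroup G) : Prop where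
  sol : Group.IsSolvable G
  nrm : N.Normal
  cop : ∀ d ∈ 𝐫𝐜 ⁅N, N⁆, d.Coprime N.index
  anti : ∀ a ∈ 𝐫𝐜 ⁅N, N⁆, ∀ b ∈ 𝐫𝐜 ⁅N, N⁆, a ∣ b → a = b
  act : ¬ ⁅N, ⊤⁆ ≤ ⁅N, N⁆

theorem Hy.ext (h : Hy N) {ψ : N → ℂ} (x : IsIrrCharacter N ψ) (y : ψ 1 ≠ 1) :
    ∃ χ, IsIrrCharacter G χ ∧ ¬ ⁅N, N⁆ ≤ charKer χ ∧ (fun n : N => χ n) = ψ := by
  have := h.nrm
  obtain ⟨d, χ, a, b, c⟩ := exists_Kd x
  have e := irr_eq_of_inner_ne_zero (irr_res_of_coprime a c
    (h.cop d (Kd.rc3 ⟨χ, a, b, c⟩ x le_rfl y))) x b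
  refine ⟨χ, a, fun w => y ((irr_one_eq_one_iff x).2 ?_), e⟩
  rw [← e, charKer_restrict (irr_isCharacter a), ← der_sub]
  exact subgroupOf_mono N w

theorem Hy.cdN (h : Hy N) (x : d ∈ 𝐜𝐝 N) (y : d ≠ 1) : d ∈ 𝐫𝐜 ⁅N, N⁆ := by
  obtain ⟨ψ, a, b⟩ := mem_cd.1 x
  obtain ⟨χ, u, v, rfl⟩ := h.ext a (by rw [b]; exact_mod_cast y)
  exact rc_of u v b

theorem Hy.rcN (h : Hy N) (x : d ∈ 𝐫𝐜 ⁅N, N⁆) : d ∈ 𝐜𝐝 N :=
  have := h.nrm
  let ⟨_, a, _, c⟩ := mem_rc.1 x
  cd_of_irr (irr_res_of_coprime a c (h.cop d x)) c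

theorem Hy.nd (h : Hy N) : ∀ a ∈ 𝐜𝐝 N, ∀ b ∈ 𝐜𝐝 N, a ≠ 1 → a ∣ b → a = b := fun a x b y z w =>
  h.anti a (h.cdN x z) b (h.cdN y fun e => z (Nat.dvd_one.1 (e ▸ w))) w

theorem Hy.quot (h : Hy N) [D.Normal] (l : D ≤ ⁅N, N⁆) : Hy (N.map (QuotientGroup.mk' D)) := by
  have := h.sol
  have f := QuotientGroup.mk'_surjective D
  refine ⟨inferInstance, h.nrm.map _ f, fun d hd => ?_, fun a x b y => ?_, fun w => h.act ?_⟩
  · rw [← map_commutator] at hd
    rw [index_map_eq _ f (by rw [QuotientGroup.ker_mk']; exact l.trans (der_le N))]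
    exact h.cop d (rc_map f hd)
  · rw [← map_commutator] at x y
    exact h.anti a (rc_map f x) b (rc_map f y)
  · rw [← map_top_of_surjective _ f, ← map_commutator, ← map_commutator, Subgroup.map_le_map_iff,
      QuotientGroup.ker_mk', sup_eq_left.2 l] at w
    exact w

/-- a Frobenius factor group `N / K` with kernel `L / K` -/
structure FD (N K L : Subgroup G) (s : ℕ) : Prop where
  nK : K.Normal
  KN : K ≤ N
  sup : K ⊔ ⁅N, N⁆ = L
  der : ⁅L, L⁆ ≤ K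
  prime : s.Prime
  idx : PiNat {s} (K.relIndex L)
  ne : ¬ L ≤ K
  fpf : ∀ b ∈ N, b ∉ L → ∀ w ∈ L, ⁅b, w⁆ ∈ K → w ∈ K
  chr : ∃ χ, IsIrrCharacter G χ ∧ ¬ ⁅N, N⁆ ≤ charKer χ ∧ K ≤ charKer χ ∧ χ 1 = L.relIndex N
  ndvd : ¬ s ∣ L.relIndex N
  cd : ∀ d ∈ 𝐜𝐝 L, d ≠ 1 → s ∣ d

theorem Hy.fd (h : Hy N) : (∃ m, 𝐫𝐜 ⁅N, N⁆ ⊆ {m}) ∨ ∃ K L s, FD N K L s := by
  have := h.sol
  have := h.nrm
  by_cases w : commutator N ≤ ⊥
  · exact .inl ⟨0, fun d hd => absurd (der_eq_bot_iff_cd.1 (le_bot_iff.1 w) (h.rcN hd))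
      (rc_ne_one (commutator_mono le_top le_top) hd)⟩
  obtain ⟨K, _, -, k⟩ := exists_minNA w
  obtain ⟨m, x, y⟩ := k.exists_cd
  obtain ⟨p, hp, a, -⟩ | ⟨a, ⟨s, hs, b, c⟩, e⟩ := k.cases (k.abel inferInstance)
  · exact .inl ⟨m, fun d hd => (two_of_pquot h.nd hp a x y (h.rcN hd)).resolve_left
      (rc_ne_one (commutator_mono le_top le_top) hd)⟩
  have f := QuotientGroup.mk'_surjective K
  obtain rfl := e m x y
  obtain ⟨ψ, u, v⟩ := mem_cd.1 x
  obtain ⟨χ, x1, x2, x3⟩ := h.ext (irr_inflate K u) (by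
    rw [QuotientGroup.mk_one, v]; exact_mod_cast y)
  have eK : K = (charKer χ).subgroupOf N := by
    rw [← charKer_restrict (irr_isCharacter x1), x3]
    refine ((charKer_comp ψ _ f).trans ?_).symm
    rw [k.ker u (by rw [v]; exact_mod_cast y), MonoidHom.comap_bot, QuotientGroup.ker_mk']
  have eL : (commutator (N ⧸ K)).comap (QuotientGroup.mk' K) = K ⊔ commutator N := by
    rw [← map_der f, comap_map_eq, QuotientGroup.ker_mk', sup_comm]
  have i := index_comap_of_surjective (commutator _) f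
  set L := (commutator (N ⧸ K)).comap (QuotientGroup.mk' K)
  have i' : (L.map N.subtype).relIndex N = (commutator (N ⧸ K)).index := by
    rw [relIndex, subgroupOf, comap_map_eq_self_of_injective N.subtype_injective, i]
  have mK : ∀ {x : N}, x.1 ∈ K.map N.subtype ↔ x ∈ K := mem_map_iff_mem N.subtype_injective
  have mL : ∀ {x : N}, x.1 ∈ L.map N.subtype ↔ x ∈ L := mem_map_iff_mem N.subtype_injective
  have j : K.relIndex L = ♯(commutator (N ⧸ K)) := by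
    rw [← map_comap_eq_self_of_surjective f (commutator _), ← relIndex_ker, QuotientGroup.ker_mk']
  refine .inr ⟨K.map N.subtype, L.map N.subtype, s, ?_, map_subtype_le K, ?_, ?_, hs, ?_, ?_, ?_,
    ⟨χ, x1, x2, ?_, ?_⟩, i' ▸ c, fun d hd d1 => ?_⟩
  · have := charKer_normal (irr_isClassFunction x1)
    rw [eK, subgroupOf_map_subtype]
    infer_instance
  · rw [eL, Subgroup.map_sup, map_subtype_commutator]
  · rw [← map_commutator]
    exact map_mono (der_le_of_abel_map (by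
      rw [map_comap_eq_self_of_surjective f]; exact b.abel))
  · rw [relIndex_map_map_of_injective _ _ N.subtype_injective, j]
    exact b.pi
  · rw [map_le_map_iff_of_injective N.subtype_injective, ← relIndex_eq_one, j, card_eq_one]
    exact k.ne
  · rintro g hg g1 _ ⟨z, hz, rfl⟩ w
    refine mK.2 ((QuotientGroup.eq_one_iff z).1 (mem_bot.1 ((a (⟨g, hg⟩ : N)
      fun w => g1 (mL.2 w)).le ⟨hz, mem_cent1.2 (commutatorElement_eq_one_iff_mul_comm.1 ?_).symm⟩)))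
    exact (map_commutatorElement (QuotientGroup.mk' K) ⟨g, hg⟩ z).symm.trans
      ((QuotientGroup.eq_one_iff _).2 (mK.1 w))
  · rw [map_le_iff_le_comap, eK]
    exact le_rfl
  · rw [i', ← v]
    exact congrFun x3 1
  · rw [← cd_congr (L.equivMapOfInjective _ N.subtype_injective)] at hd
    refine (mul_mem_cd_or_dvd f b.abel a hd).elim (fun w => absurd ?_ d1)
      fun w => hs.dvd_of_dvd_pow ((b.pi.dvd_card k.ne).trans w)
    exact (Nat.eq_of_mul_eq_mul_left (cd_pos x) ((mul_one _).trans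
      (h.nd _ (cd_quot K x) _ w y (Dvd.intro _ rfl)))).symm

omit [Finite G] in
theorem FD.KL (h : FD N K L s) : K ≤ L := h.sup ▸ le_sup_left

omit [Finite G] in
theorem FD.dL (h : FD N K L s) : ⁅N, N⁆ ≤ L := h.sup ▸ le_sup_right

omit [Finite G] in
theorem FD.LN (h : FD N K L s) : L ≤ N := h.sup ▸ sup_le h.KN (der_le N)

omit [Finite G] in
theorem FD.nL (h : FD N K L s) [N.Normal] : L.Normal :=
  have := h.nK
  h.sup ▸ inferInstance

theorem FD.rc (h : FD N K L s) : L.relIndex N ∈ 𝐫𝐜 ⁅N, N⁆ :=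
  let ⟨_, a, b, _, c⟩ := h.chr
  rc_of a b c

theorem smul_eq_of_coprime {V : Type v} [CommGroup V] [MulDistribMulAction G V] {g : G} {β : V}
    {a b : ℕ} (h : g • (g • β * β⁻¹) = g • β * β⁻¹) (x : g ^ a • β = β) (y : (g • β * β⁻¹) ^ b = 1)
    (c : a.Coprime b) : g • β = β := by
  have e : ∀ k : ℕ, g ^ k • β = β * (g • β * β⁻¹) ^ k := fun k => by
    induction k with
    | zero => simp
    | succ k ih => 
      rw [pow_succ', mul_smul, ih, smul_mul', smul_pow', h, pow_succ', ← mul_assoc,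
        mul_comm (g • β) β⁻¹, mul_inv_cancel_left]
  rw [e, mul_eq_left] at x
  exact mul_inv_eq_one.1 (eq_one_of_pow x y c)

theorem Hy.act' (h : Hy N) (k : FD N K L s) : ¬ ⁅N, ⊤⁆ ≤ L := fun w => h.act fun x hx => by
  have := h.nrm
  have := k.nL
  by_contra x1
  obtain ⟨β, -, b⟩ := exists_lin_ne (P := N) le_rfl (x := ⟨x, (w.trans k.LN) hx⟩) x1
  refine b (le_Il.1 (le_trans (fun g _ => ?_) (stab_linAct β).le) hx)
  obtain ⟨χ, x1, x2, x3, x4⟩ := k.chr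
  have i := irr_res_of_coprime x1 x4 (h.cop _ k.rc)
  have n1 : χ 1 ≠ 1 := by
    rw [x4]; exact_mod_cast rc_ne_one (commutator_mono le_top le_top) k.rc
  obtain ⟨ξ, y1, -, y3⟩ := h.ext (irr_mul_linear i β) (by simpa using n1)
  have a : g • β * β⁻¹ ∈ Ann N L := by
    rw [← k.sup]
    change (K ⊔ ⁅N, N⁆).subgroupOf N ≤ _
    rw [subgroupOf_sup k.KN (der_le N), der_sub]
    refine sup_le (fun z hz => ?_) (Abelianization.commutator_subset_ker _)
    have e := (irr_isClassFunction y1) z g⁻¹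
    have e1 := congrFun y3 z
    have e2 := congrFun y3 ((NormalEmb.sub N).c g⁻¹ z)
    have e3 : χ z = _ := (mem_charKer_iff (irr_isCharacter x1)).1 (x3 hz)
    have e4 : χ (g⁻¹ * z * g⁻¹⁻¹) = _ :=
      (mem_charKer_iff (irr_isCharacter x1)).1 (x3 (k.nK.conj_mem _ hz g⁻¹))
    simp only [NormalEmb.sub_c] at e1 e2
    rw [e, e1, e3, e4, mul_right_inj' (irr_one_ne_zero x1), Units.val_inj] at e2
    exact mul_inv_eq_one.2 e2.symm
  refine smul_eq_of_coprime (a := N.index) (b := L.relIndex N) ?_ ?_ ?_ (h.cop _ k.rc).symm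
  · exact (stab_linAct _).ge ((le_Il (B := ⊤)).2 ((subgroupOf_mono N w).trans a) trivial)
  · exact (stab_linAct _).ge (le_Il_self β (N.pow_index_mem g))
  · exact pow_index_eq_one a

end CF.Degs
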