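import Cfsg.Agent.Deg.Nd1

/-!
Under the hypothesis `Hy N` the normal subgroup `N` has at most one non-linear degree.
-/

set_option autoImplicit false

namespace CF.Degs

open Cfsg Subgroup CF.BG CF.Clifford CF.Char CF.Fgs2.Isa MulAction
open scoped commutatorElement

attribute [local instance] Fintype.ofFinite linAct

universe u v

variable {G : Type u} [Group G] [Finite G] {d m p q r s t : ℕ}
  {A D H I K L M N P Q T W X : Subgroup G}

theorem sup_of_cop [N.Normal] (c : I.index.Coprime N.index) : N ⊔ I = ⊤ :=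
  index_eq_one.1 ((Nat.coprime_self _).1 ((c.coprime_dvd_left
    (index_dvd_of_le le_sup_right)).coprime_dvd_right (index_dvd_of_le le_sup_left)))

theorem idx_of_cop [N.Normal] (c : I.index.Coprime N.index) : I.relIndex N = I.index := by
  rw [← relIndex_sup_norm (.inr (le_top.trans (normalIn_top.2 ‹_›).norm)), sup_of_cop c,
    relIndex_top_right]

theorem abel_inf (h : Abel (I.subgroupOf H)) : Abel (H ⊓ I) := by
  have := h.map H.subtype
  rwa [subgroupOf_map_subtype, inf_comm] at this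

theorem eq_of_relIndex (l : H ≤ K) (m : K ≤ N) (h : H.relIndex N = K.relIndex N) : K ≤ H := by
  have := relIndex_mul_relIndex _ _ _ l m
  rw [h] at this
  exact relIndex_eq_one.1 (Nat.eq_of_mul_eq_mul_right (relIndex_pos _ _) (this.trans (one_mul _).symm))

theorem Hy.abel (h : Hy N) (x : ∀ d ∈ 𝐜𝐝 (I.subgroupOf H), I.index * (d * t) ∈ 𝐫𝐜 ⁅N, N⁆) :
    Abel (H ⊓ I) := abel_inf (abel_iff_cd.2 fun d hd => by
  have := h.anti _ (x 1 one_mem_cd) _ (x d hd) ⟨d, by ring⟩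
  have t0 := rc_pos (x 1 one_mem_cd)
  rw [one_mul, mul_left_comm] at this
  exact Nat.eq_of_mul_eq_mul_right t0 (by rw [one_mul, one_mul, ← this]))

theorem Hy.not_le (h : Hy N) (k : FD N K L s) (x : I.index * t ∈ 𝐫𝐜 ⁅N, N⁆) (w : N ⊓ I ≤ L) :
    t = 1 ∧ L ≤ I := by
  have := h.nrm
  have c := (h.cop _ x).coprime_mul_right
  have y : L.relIndex N ∣ I.index := by
    rw [← idx_of_cop c, ← inf_relIndex_left N I]
    exact relIndex_dvd_left N w
  have e := h.anti _ k.rc _ x (y.mul_right _)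
  have t1 : t = 1 := Nat.dvd_one.1 (Nat.dvd_of_mul_dvd_mul_left (Nat.pos_of_ne_zero
    index_ne_zero_of_finite) (by rw [mul_one, ← e]; exact y))
  rw [t1, mul_one, ← idx_of_cop c, ← inf_relIndex_left N I] at e
  exact ⟨t1, (eq_of_relIndex w k.LN e.symm).trans inf_le_right⟩

theorem FD.le_K (k : FD N K L s) (l : X ≤ L) (x : PiGrp {s}ᶜ X) : X ≤ K :=
  have := k.nK
  x.le_of_relIndex l (le_top.trans (normalIn_top.2 this).norm) k.idx.compl_compl

theorem caseB (h : Hy N) (k : FD N K L s) (m : MinN ⁅L, L⁆ ⊤) : L ≤ 𝐂 ⁅L, L⁆ := by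
  by_contra nc
  have := h.sol
  have := h.nrm
  have := k.nL
  have := k.nK
  set M := ⁅L, L⁆
  have nM : ∀ X : Subgroup G, X ≤ 𝐍 M := fun X => le_top.trans m.norm
  have nL := normalIn_top.2 ‹L.Normal›
  obtain ⟨t, ht, ab⟩ := m.exists_abelem inferInstance
  have n1 : ∀ π E, Hall π E L → ⊤ ≤ 𝐍 (M ⊔ E) := fun π E e => norm_sup_of_qt (nM _) m.norm
    ((qt_norm M nL.norm).trans (((abel_qt_iff (nM _)).2 le_rfl).nil.hall_norm (e.qt (nM _))))
  obtain ⟨E, hE⟩ := Sol.exists_hall (M := L) inferInstance {t}ᶜ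
  obtain ⟨T, hT⟩ := exists_syl t L
  have cT : T ≤ 𝐂 M := m.cent_of_pi ab.pi hT.pi (nM _) (by
    have := n1 _ T hT
    rwa [sup_eq_right.2 (hT.le_of_normal (der_normal L) ab.pi)] at this)
  have nE := n1 _ E hE
  have i := ab.pi.inf_eq_bot hE.pi
  have c : M ⊓ 𝐂 E = ⊥ := by
    obtain w | w := m.inf_eq_bot_or_le (norm_cent nE)
    · exact eq_bot_mono w (le_inf inf_le_left (le_cent_sup (inf_le_left.trans ab.abel) inf_le_right))
    · exact absurd ((hT.sup_eq hE).ge.trans (sup_le cT (cent_symm (w.trans (cent_anti le_sup_right))))) nc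
  have sd : SDProd M (𝐍 E) ⊤ := ⟨nM _, by
    have := (hE.of_le le_sup_right (sup_le (der_le L) hE.le)).frattini_sup inferInstance ⟨le_top, nE⟩
    rwa [top_inf_eq, sup_assoc, sup_eq_right.2 (le_norm_self E)] at this,
    by rw [inf_norm_eq_inf_cent (nM E) (inf_comm M E ▸ i), c]⟩
  set H := 𝐍 E
  have MN : M ≤ ⁅N, N⁆ := commutator_mono k.LN k.LN
  have A : ∀ μ : M →* ℂˣ, μ ≠ 1 → H ⊓ Il M μ ⊓ L ≤ K := fun μ m1 => by
    have x : ∀ d ∈ 𝐜𝐝 ((Il M μ).subgroupOf H), (Il M μ).index * (d * 1) ∈ 𝐫𝐜 ⁅N, N⁆ := fun d hd => by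
      obtain ⟨β, x, y, z⟩ := sd_char sd (le_Il_self μ) hd
      rw [mul_one]
      exact rc_mono MN (Kd.rc' (sd_over sd μ x y z) m1)
    have a := h.abel x
    obtain ⟨b, hb, b1⟩ := SetLike.not_le_iff_exists.1 fun w : H ⊓ (N ⊓ Il M μ) ≤ L => by
      have l := (h.not_le k (x 1 one_mem_cd) (by
        have := (sd.inf_of_left_le (le_inf (MN.trans (der_le N)) (le_Il_self μ))).sup
        rw [top_inf_eq] at this
        exact this.ge.trans (sup_le (der_le L) w))).2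
      refine m1 (eq_one_of_sup (comm_sup_inf_cent (nM E) (hE.pi.coprime' ab.pi) (.inr inferInstance))
        (le_Il.1 (hE.le.trans l)) ?_)
      rw [c, bot_subgroupOf]
      exact bot_le
    exact fun w hw => k.fpf b hb.2.1 b1 w hw.2 (by
      rw [commutatorElement_eq_one_iff_mul_comm.2 (a.mul_comm ⟨hb.1, hb.2.2⟩ hw.1)]; exact K.one_mem)
  have sL := sd.inf_of_left_le (der_le L)
  rw [top_inf_eq] at sL
  obtain ⟨S, sS⟩ := exists_syl s (H ⊓ L)
  have eS : L ≤ K ⊔ S := relIndex_eq_one.1 ((k.idx.dvd (relIndex_dvd_left L le_sup_left)).eq_one (by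
    conv => arg 2; rw [← sL.sup, relIndex_sup_of_le (k.der.trans le_sup_left) (nM _)]
    exact sS.idx_of_le le_sup_right))
  have B : ∀ X, X ≤ S → ¬ M ≤ ⁅M, X⁆ → X ≤ K := fun X l w => by
    obtain ⟨μ, x, y⟩ := exists_lin_of_lt ab.abel w
    exact le_trans (le_inf (le_inf (l.trans (sS.le.trans inf_le_left)) (le_Il.2 x))
      (l.trans (sS.le.trans inf_le_right))) (A μ y)
  have st : s ≠ t := by
    rintro rfl
    have := n1 _ T hT
    rw [sup_eq_right.2 (hT.le_of_normal (der_normal L) ab.pi)] at this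
    refine k.ne (eS.trans (sup_le le_rfl (B S le_rfl ?_)))
    rw [comm_eq_bot'.2 ((hT.le_normal (le_top.trans this) (sS.le.trans inf_le_right) sS.pi).trans cT)]
    simpa using m.ne_bot
  have cS := (sS.pi.of_single_ne st).coprime' ab.pi
  have aS : Abel S := der_eq_bot.1 (eq_bot_mono sd.inf (le_inf (commutator_mono
    (sS.le.trans inf_le_right) (sS.le.trans inf_le_right)) ((der_le S).trans (sS.le.trans inf_le_left))))
  obtain ⟨X, l, cy, w⟩ : ∃ X, X ≤ S ∧ Cyc (qt X S) ∧ ¬ M ⊓ 𝐂 X ≤ ⊥ := by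
    by_contra! w
    exact m.ne_bot (le_bot_iff.1 (aS.le_of_cocyc (nM S) cS w))
  have XK := B X l fun v => w ((inf_le_inf_right _ v).trans
    (ab.abel.comm_inf_cent (nM X) (cS.coprime_dvd_left (card_dvd_of_le l))).le)
  have nK : ∀ X : Subgroup G, X ≤ 𝐍 K := fun X => le_top.trans (normalIn_top.2 ‹_›).norm
  obtain ⟨x, hx, e⟩ := (cyc_qt_iff (norm_of_der_le l ((der_eq_bot.2 aS).le.trans bot_le))).1 cy
  have cy : Cyc (qt K L) := (cyc_qt_iff (nK L)).2 ⟨x, (sS.le hx).2,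
    eS.trans (sup_le le_sup_left (e.trans (sup_le_sup_right XK _)))⟩
  have := cy.der_le_cent (qt_norm K nL.norm)
  rw [← qt_comm (nK _) (nK _), qt_cent_iff (nK _) (nK _)] at this
  refine h.act' k fun b hb => by_contra fun b1 => k.ne fun w hw =>
    k.fpf b (comm_le_left (normalIn_top.2 ‹N.Normal›).norm hb) b1 w hw
      (this (commutator_mem_commutator (commutator_mono le_top le_rfl hb) hw))

theorem cnt {V : Type v} [CommGroup V] [Finite V] [MulDistribMulAction G V] {W : Subgroup V}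
    (h : Hy N) (k : FD N K L s) (hT : Hall (piOf N.index) T ⊤) (i : Iv (⊤ : Subgroup G) W)
    (a : ∀ v ∈ W, v ≠ 1 → L ≤ stabilizer G v ∧ (stabilizer G v).index.Coprime N.index ∧
      ⁅N ⊓ stabilizer G v, ⊤⁆ ≤ L) :
    ♯W - 1 = (𝐍 (L ⊔ T : Subgroup G)).index * (♯(W ⊓ Fx V (L ⊔ T) : Subgroup V) - 1) := by
  have := h.sol
  have := h.nrm
  have := k.nL
  refine count i (fun v x y => ?_) fun v x y g b c => ?_ <;> obtain ⟨a1, a2, a3⟩ := a v x y
  · obtain ⟨Y, hY⟩ := Sol.exists_hall (M := stabilizer G v) inferInstance (piOf N.index)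
    obtain ⟨g, -, e⟩ := hT.conj inferInstance (hY.trans_idx le_top (by
      rw [relIndex_top_right]; exact piNat_compl_piOf.2 a2))
    refine ⟨g, mem_Fx.2 ?_⟩
    rw [cj_sup, cj_of_norm ((normalIn_top.2 ‹L.Normal›).norm trivial), ← e]
    exact sup_le a1 hY.le
  rw [mem_Fx] at b c
  have e : N ⊔ T = ⊤ := sup_of_cop (piNat_compl_piOf.1 (relIndex_top_right T ▸ hT.idx))
  have n : N ⊓ stabilizer G v ≤ 𝐍 (L ⊔ T : Subgroup G) :=
    norm_of_comm_le' (((commutator_mono le_rfl le_top).trans a3).trans le_sup_left)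
  have f : (L ⊔ T) ⊔ (N ⊓ stabilizer G v) = stabilizer G v := by
    refine le_antisymm (sup_le b inf_le_right) ?_
    have := sup_inf_right (A := N) (le_sup_right.trans b)
      (.inr (le_top.trans (normalIn_top.2 ‹N.Normal›).norm))
    rw [e, top_inf_eq] at this
    exact this.le.trans (sup_le le_sup_right (le_sup_right.trans le_sup_left))
  refine mem_norm_of_cj_le ?_
  rw [cj_sup, cj_of_norm ((normalIn_top.2 ‹L.Normal›).norm trivial)] at c ⊢
  refine sup_le le_sup_left ((hT.pi.cj g).le_of_relIndex (le_sup_right.trans c)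
    (f ▸ sup_le (le_norm_self _) n) ?_)
  rw [← f, relIndex_sup_norm' (.inl n)]
  exact (piNat_compl_piOf.2 (h.cop _ k.rc)).dvd ((relIndex_dvd_left _ le_sup_left).trans
    (relIndex_dvd_of_norm inf_le_left (le_top.trans (normalIn_top.2 ‹L.Normal›).norm)))

omit [Finite G] in
theorem cent_le_inertia [P.Normal] (θ : P → ℂ) : 𝐂 P ≤ (NormalEmb.sub P).inertia θ := fun g hg =>
  funext fun n => congrArg θ (Subtype.ext (mul_inv_eq_iff_eq_mul.2 (hg n n.2).symm))

theorem inertia_le_Il [P.Normal] (c : P ≤ 𝐂 ⁅P, P⁆) {μ : (⁅P, P⁆ : Subgroup G) →* ℂˣ} (m : μ ≠ 1)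
    {θ : P → ℂ} (h : IsIrrCharacter P θ)
    (o : classInner (fun n : (⁅P, P⁆ : Subgroup G) => θ ⟨n, der_le P n.2⟩) (fun n => μ n) ≠ 0) :
    (NormalEmb.sub P).inertia θ ≤ Il _ μ := fun g hg => mem_Il.2 fun n => by
  have u := (over_central c m h o).2
  have := (NormalEmb.sub P).mem_inertia'.1 hg ⟨n, der_le P n.2⟩
  rwa [u, show (NormalEmb.sub P).c g ⟨n, der_le P n.2⟩ =
    ⟨(NormalEmb.sub ⁅P, P⁆).c g n, der_le P (Subtype.prop _)⟩ from rfl, u,
    mul_left_inj' (irr_one_ne_zero h), Units.val_inj] at this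

theorem exists_theta [P.Normal] (sd : SDProd P H ⊤) (co : (♯P).Coprime (♯H)) (c : P ≤ 𝐂 ⁅P, P⁆)
    {μ : (⁅P, P⁆ : Subgroup G) →* ℂˣ} (m : μ ≠ 1) : ∃ θ, IsIrrCharacter P θ ∧
      classInner (fun n : (⁅P, P⁆ : Subgroup G) => θ ⟨n, der_le P n.2⟩) (fun n => μ n) ≠ 0 ∧
      (NormalEmb.sub P).inertia θ = Il _ μ := by
  obtain ⟨θ, x, y, z⟩ := ((NormalEmb.sub ⁅P, P⁆).restrict P fun n => der_le P n.2
    ).exists_inv_over_of_comm (S := (Il _ μ).subgroupOf H)
    (fun x hx => ⟨⟨x, mem_der_sub hx⟩, rfl⟩)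
    ((NormalEmb.sub P).c.comp (H.subtype.comp (Subgroup.subtype _)))
    ((NormalEmb.sub ⁅P, P⁆).c.comp (H.subtype.comp (Subgroup.subtype _))) (fun _ _ => rfl)
    (by
      rw [NormalEmb.index_restrict_sub]
      exact (co.coprime_dvd_left (relIndex_dvd_card _ _)).coprime_dvd_right
        (card_subgroup_dvd_card _)) (irr_linear μ) fun s => congrFun s.2
  refine ⟨θ, x, y, (inertia_le_Il c m x y).antisymm ?_⟩
  have := (sd.inf_of_left_le (L := Il _ μ) (c.trans (cent_le_inertia _))).sup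
  rw [top_inf_eq] at this
  exact this.ge.trans (sup_le (le_inertia_self x) fun g hg => funext (z ⟨⟨g, hg.1⟩, hg.2⟩))

theorem exists_mu [P.Normal] (c : P ≤ 𝐂 ⁅P, P⁆) {θ : P → ℂ} (h : IsIrrCharacter P θ)
    (t1 : θ 1 ≠ 1) : ∃ μ : (⁅P, P⁆ : Subgroup G) →* ℂˣ, μ ≠ 1 ∧
      classInner (fun n : (⁅P, P⁆ : Subgroup G) => θ ⟨n, der_le P n.2⟩) (fun n => μ n) ≠ 0 := by
  obtain ⟨φ, x, y⟩ := exists_irr_inner_ne_zero (classFun_comp (irr_isClassFunction h)
    (inclusion (der_le P))) fun w => irr_one_ne_zero h (congrFun w 1)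
  obtain ⟨μ, rfl⟩ := exists_linear_of_one (irr_isCharacter x) (irr_one_eq_one_of_comm
    (fun a b => Subtype.ext (c (der_le P b.2) a a.2)) x)
  refine ⟨μ, fun w => t1 ((irr_one_eq_one_iff h).2 fun g hg =>
    (mem_charKer_iff (irr_isCharacter h)).2 ?_), y⟩
  have := scalar_of_inner (inclusion (der_le P)) (fun z => mem_center_iff.2 fun g =>
    Subtype.ext (c g.2 z z.2).symm) h y ⟨g, mem_der_sub hg⟩ 1
  rwa [mul_one, w, MonoidHom.one_apply, Units.val_one, one_mul] at this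

theorem caseA (h : Hy N) (k : FD N K L s) (m : MinN ⁅L, L⁆ ⊤) : False := by
  have c := caseB h k m
  have := h.sol
  have := h.nrm
  have := k.nL
  have nL := normalIn_top.2 ‹L.Normal›
  have nil := nil_of_der_le_cent (cent_symm c)
  obtain ⟨t, ht, ab⟩ := m.exists_abelem inferInstance
  have dp := nil.dprod {t}
  have kP := O_pi {t} L
  have kE := O_pi {t}ᶜ L
  have sP : Syl t (𝐎 {t} L) L := nil.hall_O _
  have nP' := normalIn_top.1 (nL.O {t})
  have nE := normalIn_top.1 (nL.O {t}ᶜ)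
  set P := 𝐎 {t} L
  set E := 𝐎 {t}ᶜ L
  have aE : Abel E := der_eq_bot.1 (eq_bot_mono (ab.pi.inf_eq_bot kE)
    (le_inf (commutator_mono dp.right_le dp.right_le) (der_le E)))
  have eM : ⁅L, L⁆ = ⁅P, P⁆ := le_antisymm ((le_inf (sP.le_of_normal (der_normal L) ab.pi)
    le_rfl).trans ((nil.npc t).inf_der_le sP)) (commutator_mono dp.left_le dp.left_le)
  have MN : ⁅L, L⁆ ≤ ⁅N, N⁆ := commutator_mono k.LN k.LN
  obtain ⟨e, he⟩ := exists_rc m.ne_bot
  obtain ⟨j, j1, j2, j3⟩ := dvd_of_rc he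
  have j4 := k.cd j j1 j2
  obtain rfl : s = t := kP s k.prime (j4.trans ((cd_dvd_index (aE.subgroupOf L) j1).trans
    dp.sdprod.relIndex_right.dvd))
  have sG : Syl s P ⊤ := syl_mk ht le_top kP (by
    rw [← relIndex_mul_relIndex _ _ _ dp.left_le le_top, ← relIndex_mul_relIndex _ _ _ k.LN le_top,
      relIndex_top_right, ht.dvd_mul, ht.dvd_mul]
    rintro (w | w | w)
    exacts [sP.not_dvd ht w, k.ndvd w, ht.ne_one ((Nat.coprime_self _).1
      (((h.cop e (rc_mono MN he)).coprime_dvd_left (j4.trans j3)).coprime_dvd_right w))])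
  rw [eM] at m ab c MN
  have nP : ∀ X : Subgroup G, X ≤ 𝐍 P := fun X => le_top.trans (normalIn_top.2 ‹_›).norm
  obtain ⟨H, sd, hH⟩ := sG.exists_compl (nP _)
  have co := sd.coprime sG
  have cP := dp.left_le.trans c
  have LI : ∀ θ, IsIrrCharacter P θ → L ≤ (NormalEmb.sub P).inertia θ := fun θ x =>
    dp.sup.ge.trans (sup_le (le_inertia_self x) (dp.cent.trans (cent_le_inertia θ)))
  have A : ∀ θ, IsIrrCharacter P θ → ∀ t : ℕ, θ 1 = t → t ≠ 1 →
      ((NormalEmb.sub P).inertia θ).index * t ∈ 𝐫𝐜 ⁅N, N⁆ ∧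
      ⁅N ⊓ (NormalEmb.sub P).inertia θ, ⊤⁆ ≤ L := fun θ x t y z => by
    have a := fun d (hd : d ∈ 𝐜𝐝 _) => Kd.rc3 (cop_Kd sd co x y hd) x MN (by rw [y]; exact_mod_cast z)
    have b := a 1 one_mem_cd
    rw [one_mul] at b
    refine ⟨b, ?_⟩
    have sI := sd.inf_of_left_le (le_inertia_self x)
    rw [top_inf_eq] at sI
    have d := der_le_sup' sI.normal sI.sup
    rw [der_eq_bot.2 (h.abel a), sup_bot_eq] at d
    rw [commutator_comm, ← sup_of_cop (h.cop _ b).coprime_mul_right]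
    exact (le_centMod.1 (sup_le (le_centMod.2 ⟨le_top.trans nL.norm, (commutator_mono le_rfl
      inf_le_left).trans k.dL⟩) (le_centMod.2 ⟨le_top.trans nL.norm, (commutator_mono le_rfl
      inf_le_right).trans (d.trans dp.left_le)⟩))).2
  have B : ∀ μ : (⁅P, P⁆ : Subgroup G) →* ℂˣ, μ ≠ 1 → (L ≤ Il _ μ ∧ (Il _ μ).index.Coprime N.index ∧
      ⁅N ⊓ Il _ μ, ⊤⁆ ≤ L) ∧ ¬ N ⊓ 𝐂 ⁅P, P⁆ ≤ L := fun μ m1 => by
    obtain ⟨θ, x, y, z⟩ := exists_theta sd co cP m1
    obtain ⟨t, -, w⟩ := exists_cd x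
    have t1 : t ≠ 1 := fun e => (over_central cP m1 x y).1 (by simp [w, e])
    obtain ⟨a, b⟩ := A θ x t w t1
    have l := LI θ x
    rw [z] at a b l
    refine ⟨⟨l, (h.cop _ a).coprime_mul_right, b⟩, fun v => t1 (h.not_le k a (le_trans ?_ v)).1⟩
    refine le_inf inf_le_left (comm_eq_bot'.1 ((m.eq_bot_or (comm_le_left (le_top.trans m.norm))
      (norm_commutator m.norm (norm_of_comm_le (b.trans (le_inf k.LN l))))).resolve_right
        fun e => m1 (MonoidHom.ext fun n => ?_)))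
    exact le_Il.1 (inf_le_right (a := N)) (e.ge n.2)
  obtain ⟨μ, -, m1⟩ := exists_lin_of_lt ab.abel (W := ⊥) (by simpa using m.ne_bot)
  set N0 := N ⊓ 𝐂 ⁅P, P⁆
  have s0 := sd.inf_of_left_le (L := N0) (le_inf (dp.left_le.trans k.LN) cP)
  rw [top_inf_eq] at s0
  set Q := H ⊓ N0
  have cQ : (♯Q).Coprime (♯P) := co.symm.coprime_dvd_left (card_dvd_of_le inf_le_left)
  have lt := card_lt_Ann inferInstance cP cQ (inf_le_right.trans inf_le_right) (fun w => by
    obtain ⟨b, hb, b1⟩ := SetLike.not_le_iff_exists.1 fun v : Q ≤ L =>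
      (B μ m1).2 (s0.sup.ge.trans (sup_le dp.left_le v))
    exact k.ne (dp.sup.ge.trans (sup_le (fun g hg => k.fpf b hb.2.1 b1 g (dp.left_le hg) (by
      rw [commutatorElement_eq_one_iff_mul_comm.2 (w hb g hg).symm]; exact K.one_mem))
      (k.le_K dp.right_le kE)))) fun θ x t1 => by
    obtain ⟨ν, n1, y⟩ := exists_mu cP x t1
    obtain ⟨φ, x', y', z⟩ := exists_theta sd co cP n1
    obtain ⟨lam, -, e⟩ := ((NormalEmb.sub ⁅P, P⁆).restrict P fun n => der_le P n.2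
      ).exists_linear_mul (fun x hx => ⟨⟨x, mem_der_sub hx⟩, rfl⟩) (irr_linear ν) x' x y' y
    obtain ⟨t, ht, w⟩ := exists_cd x
    have t2 : t ≠ 1 := fun e => t1 (by simp [w, e])
    have l := (inertia_le_Il cP n1 x y).trans z.ge
    have := h.anti _ (A φ x' t (by simpa [e] using w) t2).1 _ (A θ x t w t2).1
      (Nat.mul_dvd_mul_right (index_dvd_of_le l) _)
    rw [eq_of_le_of_index_le l (Nat.eq_of_mul_eq_mul_right (cd_pos ht) this).ge, z]
    exact inf_le_right.trans (inf_le_right.trans (cent_le_inertia _))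
  obtain ⟨T, hT⟩ := Sol.exists_hall (M := (⊤ : Subgroup G)) inferInstance (piOf N.index)
  have cV := cnt (V := (⁅P, P⁆ : Subgroup G) →* ℂˣ) (W := ⊤) h k hT iv_top fun μ _ m1 => by
    rw [stab_linAct]; exact (B μ m1).1
  have cW := cnt (W := Ann P (P ⊓ 𝐂 Q)) h k hT (fun g _ _ hβ _ hx => hβ (conj_mem_of_norm
    ((sd.sup ▸ sup_le (norm_of_der_le inf_le_left (le_inf (der_le P) (cent_symm
      (inf_le_right.trans inf_le_right)))) (norm_inf (nP _) (norm_cent (norm_inf (le_norm_self H)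
        (le_top.trans (normalIn_top.2 (inferInstance : N0.Normal)).norm)))) : ⊤ ≤ 𝐍 (P ⊓ 𝐂 Q : Subgroup G))
          (mem_top g⁻¹)) hx)) fun β x y => by
    rw [stab_linAct]
    have l := LI _ (irr_linear β)
    have nf : ¬ ⁅P, N⁆.subgroupOf P ≤ β.ker := fun w =>
      y (eq_one_of_sup (comm_sup_inf_cent (nP _) cQ (.inr inferInstance)) ((subgroupOf_mono P
        (commutator_mono le_rfl (inf_le_right.trans inf_le_left))).trans w) x)
    have a := Kd.rc2 (N := ⁅N, N⁆) (cop_Kd sd co (irr_linear β) (t := 1) (by simp) one_mem_cd)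
      (irr_linear β) fun w => nf ((subgroupOf_mono P (commutator_mono (dp.left_le.trans k.LN)
        le_rfl)).trans (charKer_linear β ▸ w))
    rw [mul_one, mul_one] at a
    have b := h.cop _ a
    refine ⟨l, b, (commutator_mono ?_ le_rfl).trans (comm_le_left nL.norm)⟩
    refine eq_of_relIndex (le_inf k.LN l) inf_le_left ?_
    rw [inf_relIndex_left, idx_of_cop b]
    exact (h.anti _ a _ k.rc (by rw [← idx_of_cop b]; exact relIndex_dvd_left N l)).symm
  have kM := kP.le (der_le P)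
  obtain ⟨a, ha⟩ := card_pow ht (pgroup_lin ht kM) ⊤
  obtain ⟨b, hb⟩ := card_pow ht (pgroup_lin ht kM) (⊤ ⊓ Fx _ (L ⊔ T))
  obtain ⟨c, hc⟩ := card_pow ht (pgroup_lin ht kP) (Ann P (P ⊓ 𝐂 Q))
  obtain ⟨d, hd⟩ := card_pow ht (pgroup_lin ht kP) (Ann P (P ⊓ 𝐂 Q) ⊓ Fx _ (L ⊔ T))
  rw [ha, hc] at lt
  refine arith ht.two_le (ha ▸ hb ▸ cV) (hc ▸ hd ▸ cW) ?_ ((Nat.pow_lt_pow_iff_right ht.one_lt).1 lt)
  rw [← Nat.pow_lt_pow_iff_right ht.one_lt, ← ha, ← hb, top_inf_eq]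
  refine card_lt (lt_top_iff_ne_top.2 fun w => h.act' k ?_)
  rw [w, inf_idem] at cV
  have : 1 < ♯(⊤ : Subgroup ((⁅P, P⁆ : Subgroup G) →* ℂˣ)) :=
    one_lt_card_iff_ne_bot _ |>.2 fun w => m1 (mem_bot.1 (w ▸ mem_top μ))
  have n := index_eq_one.1 (Nat.eq_of_mul_eq_mul_right (by omega) (cV.symm.trans (one_mul _).symm))
  have e : N ⊔ T = ⊤ := sup_of_cop (piNat_compl_piOf.1 (relIndex_top_right T ▸ hT.idx))
  have nN := (normalIn_top.2 ‹N.Normal›).norm
  rw [commutator_comm, ← e]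
  refine (le_centMod.1 (sup_le (le_centMod.2 ⟨le_top.trans nL.norm, k.dL⟩)
    (le_centMod.2 ⟨le_top.trans nL.norm, ?_⟩))).2
  refine le_trans (le_inf ((commutator_mono le_sup_right le_rfl).trans
    (comm_le_left (le_top.trans n.ge))) (comm_le_right (le_top.trans nN))) ?_
  rw [sup_inf_left k.LN (.inr (le_top.trans nL.norm))]
  exact sup_le le_rfl ((hT.pi.le inf_le_left).le_of_relIndex inf_le_right (le_top.trans nL.norm)
    (piNat_compl_piOf.2 (h.cop _ k.rc)))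

theorem Hy.main (n : ℕ) : ∀ (G : Type u) [Group G] [Finite G] (N : Subgroup G), Nat.card G = n →
    Hy N → ∃ m, 𝐫𝐜 ⁅N, N⁆ ⊆ {m} := by
  induction n using Nat.strong_induction_on with | _ n ih => ?_
  intro G _ _ N e h
  refine h.fd.elim id fun ⟨K, L, s, k⟩ => ?_
  have := h.nrm
  have := k.nL
  by_cases a : ⁅L, L⁆ = ⊥
  · exact ⟨_, fun d hd => h.anti d hd _ k.rc
      (cd_dvd_index ((der_eq_bot.1 a).subgroupOf N) (h.rcN hd))⟩
  obtain ⟨D, -, c⟩ := exists_chief_below (normalIn_top.2 (inferInstance : (⁅L, L⁆).Normal))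
    (bot_lt_iff_ne_bot.2 a) (by simp)
  by_cases D1 : D = ⊥
  · subst D1
    exact (caseA h k ⟨a, c.normal.norm, fun X l x y => (c.eq_or bot_le l y).resolve_left x⟩).elim
  have := normalIn_top.1 c.normalV
  have f := QuotientGroup.mk'_surjective D
  have l := commutator_mono k.LN k.LN
  obtain ⟨m, hm⟩ := ih _ (e ▸ Solv.card_quotient_lt D1) _ _ rfl (h.quot (c.lt.le.trans l))
  rw [← map_commutator] at hm
  obtain ⟨χ, x, y, z, w⟩ := k.chr
  obtain ⟨d, hd⟩ := exists_rc (N := ⁅L, L⁆.map (QuotientGroup.mk' D)) (by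
    rw [Ne, Subgroup.map_eq_bot_iff, QuotientGroup.ker_mk']; exact c.lt.not_ge)
  obtain ⟨j, j1, j2, j3⟩ := dvd_of_rc (rc_map f hd)
  have e1 := hm (rc_mono (map_mono l) hd)
  have e2 := hm (rc_quot x y (c.lt.le.trans (k.der.trans z)) w)
  exact absurd ((k.cd j j1 j2).trans (j3.trans (e1.trans e2.symm).dvd)) k.ndvd

end CF.Degs
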